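import Cfsg.Agent.OD.Pre
import Cfsg.Agent.H6.Ly3M.D
set_option autoImplicit false
set_option maxRecDepth 100000
set_option Elab.async false
set_option linter.all false
namespace CfH6.Ly3M
open CfH6
theorem r4 : ∀ r ∈ (((((Ly3B.rels.drop 14).drop 10).drop 11).drop 7).take 1), evw (evU sem ms Ly3B.il) r = 1 := U.rels (by decide +kernel)
end CfH6.Ly3M
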